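import Mathlib
import Cfsg.Agent.Lib.Helper56.TC
import Cfsg.Agent.Lib.Helper56.Fi23a.D
set_option autoImplicit false
set_option maxRecDepth 1000000

namespace Cfsg.Agent.Lib.Helper56.Fi23a

open Cfsg.Agent.Lib.Helper56.TC Cfsg.Agent.Lib.Helper56.TC.Tabs

theorem cN_0 : allRange (fun x => forceN T.chkName x) 0 454 = true := by decide +kernel
theorem cN_454 : allRange (fun x => forceN T.chkName x) 454 459 = true := by decide +kernel
theorem cN_913 : allRange (fun x => forceN T.chkName x) 913 460 = true := by decide +kernel
theorem cN_1373 : allRange (fun x => forceN T.chkName x) 1373 462 = true := by decide +kernel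
theorem cN_1835 : allRange (fun x => forceN T.chkName x) 1835 463 = true := by decide +kernel
theorem cN_2298 : allRange (fun x => forceN T.chkName x) 2298 462 = true := by decide +kernel
theorem cN_2760 : allRange (fun x => forceN T.chkName x) 2760 465 = true := by decide +kernel
theorem cN_3225 : allRange (fun x => forceN T.chkName x) 3225 464 = true := by decide +kernel
theorem cN_3689 : allRange (fun x => forceN T.chkName x) 3689 465 = true := by decide +kernel
theorem cN_4154 : allRange (fun x => forceN T.chkName x) 4154 465 = true := by decide +kernel
theorem cN_4619 : allRange (fun x => forceN T.chkName x) 4619 466 = true := by decide +kernel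
theorem cN_5085 : allRange (fun x => forceN T.chkName x) 5085 466 = true := by decide +kernel

end Cfsg.Agent.Lib.Helper56.Fi23a
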