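import Mathlib
import Cfsg.Agent.Lib.Helper56.TC
import Cfsg.Agent.Lib.Helper56.Fi23a.D
set_option autoImplicit false
set_option maxRecDepth 1000000

namespace Cfsg.Agent.Lib.Helper56.Fi23a

open Cfsg.Agent.Lib.Helper56.TC Cfsg.Agent.Lib.Helper56.TC.Tabs

theorem cN_5551 : allRange (fun x => forceN T.chkName x) 5551 467 = true := by decide +kernel
theorem cN_6018 : allRange (fun x => forceN T.chkName x) 6018 467 = true := by decide +kernel
theorem cN_6485 : allRange (fun x => forceN T.chkName x) 6485 467 = true := by decide +kernel
theorem cN_6952 : allRange (fun x => forceN T.chkName x) 6952 468 = true := by decide +kernel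
theorem cN_7420 : allRange (fun x => forceN T.chkName x) 7420 466 = true := by decide +kernel
theorem cN_7886 : allRange (fun x => forceN T.chkName x) 7886 468 = true := by decide +kernel
theorem cN_8354 : allRange (fun x => forceN T.chkName x) 8354 468 = true := by decide +kernel
theorem cN_8822 : allRange (fun x => forceN T.chkName x) 8822 470 = true := by decide +kernel
theorem cN_9292 : allRange (fun x => forceN T.chkName x) 9292 460 = true := by decide +kernel
theorem cN_9752 : allRange (fun x => forceN T.chkName x) 9752 472 = true := by decide +kernel
theorem cN_10224 : allRange (fun x => forceN T.chkName x) 10224 468 = true := by decide +kernel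
theorem cN_10692 : allRange (fun x => forceN T.chkName x) 10692 469 = true := by decide +kernel

end Cfsg.Agent.Lib.Helper56.Fi23a
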