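import Mathlib
import Cfsg.Agent.Lib.Helper56.TC
import Cfsg.Agent.Lib.Helper56.Fi23a.D
set_option autoImplicit false
set_option maxRecDepth 1000000

namespace Cfsg.Agent.Lib.Helper56.Fi23a

open Cfsg.Agent.Lib.Helper56.TC Cfsg.Agent.Lib.Helper56.TC.Tabs

theorem cV_13020 : allRange (fun x => forceN T.chkV x) 13020 372 = true := by decide +kernel
theorem cV_13392 : allRange (fun x => forceN T.chkV x) 13392 372 = true := by decide +kernel
theorem cV_13764 : allRange (fun x => forceN T.chkV x) 13764 372 = true := by decide +kernel
theorem cV_14136 : allRange (fun x => forceN T.chkV x) 14136 372 = true := by decide +kernel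
theorem cV_14508 : allRange (fun x => forceN T.chkV x) 14508 372 = true := by decide +kernel
theorem cV_14880 : allRange (fun x => forceN T.chkV x) 14880 372 = true := by decide +kernel
theorem cV_15252 : allRange (fun x => forceN T.chkV x) 15252 372 = true := by decide +kernel
theorem cV_15624 : allRange (fun x => forceN T.chkV x) 15624 372 = true := by decide +kernel
theorem cV_15996 : allRange (fun x => forceN T.chkV x) 15996 372 = true := by decide +kernel
theorem cV_16368 : allRange (fun x => forceN T.chkV x) 16368 372 = true := by decide +kernel
theorem cV_16740 : allRange (fun x => forceN T.chkV x) 16740 372 = true := by decide +kernel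
theorem cV_17112 : allRange (fun x => forceN T.chkV x) 17112 372 = true := by decide +kernel

end Cfsg.Agent.Lib.Helper56.Fi23a
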