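import Mathlib
import Cfsg.Agent.Lib.Helper56.TC
import Cfsg.Agent.Lib.Helper56.Fi23a.D
set_option autoImplicit false
set_option maxRecDepth 1000000

namespace Cfsg.Agent.Lib.Helper56.Fi23a

open Cfsg.Agent.Lib.Helper56.TC Cfsg.Agent.Lib.Helper56.TC.Tabs

theorem cV_17484 : allRange (fun x => forceN T.chkV x) 17484 372 = true := by decide +kernel
theorem cV_17856 : allRange (fun x => forceN T.chkV x) 17856 372 = true := by decide +kernel
theorem cV_18228 : allRange (fun x => forceN T.chkV x) 18228 372 = true := by decide +kernel
theorem cV_18600 : allRange (fun x => forceN T.chkV x) 18600 372 = true := by decide +kernel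
theorem cV_18972 : allRange (fun x => forceN T.chkV x) 18972 372 = true := by decide +kernel
theorem cV_19344 : allRange (fun x => forceN T.chkV x) 19344 372 = true := by decide +kernel
theorem cV_19716 : allRange (fun x => forceN T.chkV x) 19716 372 = true := by decide +kernel
theorem cV_20088 : allRange (fun x => forceN T.chkV x) 20088 372 = true := by decide +kernel
theorem cV_20460 : allRange (fun x => forceN T.chkV x) 20460 372 = true := by decide +kernel
theorem cV_20832 : allRange (fun x => forceN T.chkV x) 20832 372 = true := by decide +kernel
theorem cV_21204 : allRange (fun x => forceN T.chkV x) 21204 372 = true := by decide +kernel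
theorem cV_21576 : allRange (fun x => forceN T.chkV x) 21576 372 = true := by decide +kernel

end Cfsg.Agent.Lib.Helper56.Fi23a
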