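import Mathlib
import Cfsg.Agent.Lib.Helper56.TC
import Cfsg.Agent.Lib.Helper56.Fi23a.D
set_option autoImplicit false
set_option maxRecDepth 1000000

namespace Cfsg.Agent.Lib.Helper56.Fi23a

open Cfsg.Agent.Lib.Helper56.TC Cfsg.Agent.Lib.Helper56.TC.Tabs

theorem cV_21948 : allRange (fun x => forceN T.chkV x) 21948 372 = true := by decide +kernel
theorem cV_22320 : allRange (fun x => forceN T.chkV x) 22320 372 = true := by decide +kernel
theorem cV_22692 : allRange (fun x => forceN T.chkV x) 22692 372 = true := by decide +kernel
theorem cV_23064 : allRange (fun x => forceN T.chkV x) 23064 372 = true := by decide +kernel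
theorem cV_23436 : allRange (fun x => forceN T.chkV x) 23436 372 = true := by decide +kernel
theorem cV_23808 : allRange (fun x => forceN T.chkV x) 23808 372 = true := by decide +kernel
theorem cV_24180 : allRange (fun x => forceN T.chkV x) 24180 372 = true := by decide +kernel
theorem cV_24552 : allRange (fun x => forceN T.chkV x) 24552 372 = true := by decide +kernel
theorem cV_24924 : allRange (fun x => forceN T.chkV x) 24924 372 = true := by decide +kernel
theorem cV_25296 : allRange (fun x => forceN T.chkV x) 25296 372 = true := by decide +kernel
theorem cV_25668 : allRange (fun x => forceN T.chkV x) 25668 372 = true := by decide +kernel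
theorem cV_26040 : allRange (fun x => forceN T.chkV x) 26040 372 = true := by decide +kernel

end Cfsg.Agent.Lib.Helper56.Fi23a
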