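import Mathlib
import Cfsg.Agent.Lib.Helper56.TC
import Cfsg.Agent.Lib.Helper56.Fi23a.D
set_option autoImplicit false
set_option maxRecDepth 1000000

namespace Cfsg.Agent.Lib.Helper56.Fi23a

open Cfsg.Agent.Lib.Helper56.TC Cfsg.Agent.Lib.Helper56.TC.Tabs

theorem cV_26412 : allRange (fun x => forceN T.chkV x) 26412 372 = true := by decide +kernel
theorem cV_26784 : allRange (fun x => forceN T.chkV x) 26784 372 = true := by decide +kernel
theorem cV_27156 : allRange (fun x => forceN T.chkV x) 27156 372 = true := by decide +kernel
theorem cV_27528 : allRange (fun x => forceN T.chkV x) 27528 372 = true := by decide +kernel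
theorem cV_27900 : allRange (fun x => forceN T.chkV x) 27900 372 = true := by decide +kernel
theorem cV_28272 : allRange (fun x => forceN T.chkV x) 28272 372 = true := by decide +kernel
theorem cV_28644 : allRange (fun x => forceN T.chkV x) 28644 372 = true := by decide +kernel
theorem cV_29016 : allRange (fun x => forceN T.chkV x) 29016 372 = true := by decide +kernel
theorem cV_29388 : allRange (fun x => forceN T.chkV x) 29388 372 = true := by decide +kernel
theorem cV_29760 : allRange (fun x => forceN T.chkV x) 29760 372 = true := by decide +kernel
theorem cV_30132 : allRange (fun x => forceN T.chkV x) 30132 372 = true := by decide +kernel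
theorem cV_30504 : allRange (fun x => forceN T.chkV x) 30504 372 = true := by decide +kernel

end Cfsg.Agent.Lib.Helper56.Fi23a
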