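import Mathlib
import Cfsg.Agent.Lib.Helper56.TC
import Cfsg.Agent.Lib.Helper56.Fi23a.D
set_option autoImplicit false
set_option maxRecDepth 1000000

namespace Cfsg.Agent.Lib.Helper56.Fi23a

open Cfsg.Agent.Lib.Helper56.TC Cfsg.Agent.Lib.Helper56.TC.Tabs

theorem cN_11161 : allRange (fun x => forceN T.chkName x) 11161 463 = true := by decide +kernel
theorem cN_11624 : allRange (fun x => forceN T.chkName x) 11624 474 = true := by decide +kernel
theorem cN_12098 : allRange (fun x => forceN T.chkName x) 12098 468 = true := by decide +kernel
theorem cN_12566 : allRange (fun x => forceN T.chkName x) 12566 468 = true := by decide +kernel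
theorem cN_13034 : allRange (fun x => forceN T.chkName x) 13034 459 = true := by decide +kernel
theorem cN_13493 : allRange (fun x => forceN T.chkName x) 13493 461 = true := by decide +kernel
theorem cN_13954 : allRange (fun x => forceN T.chkName x) 13954 477 = true := by decide +kernel
theorem cN_14431 : allRange (fun x => forceN T.chkName x) 14431 471 = true := by decide +kernel
theorem cN_14902 : allRange (fun x => forceN T.chkName x) 14902 468 = true := by decide +kernel
theorem cN_15370 : allRange (fun x => forceN T.chkName x) 15370 456 = true := by decide +kernel
theorem cN_15826 : allRange (fun x => forceN T.chkName x) 15826 472 = true := by decide +kernel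
theorem cN_16298 : allRange (fun x => forceN T.chkName x) 16298 472 = true := by decide +kernel

end Cfsg.Agent.Lib.Helper56.Fi23a
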