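import Mathlib
import Cfsg.Agent.Lib.Helper56.TC
import Cfsg.Agent.Lib.Helper56.Fi23a.D
set_option autoImplicit false
set_option maxRecDepth 1000000

namespace Cfsg.Agent.Lib.Helper56.Fi23a

open Cfsg.Agent.Lib.Helper56.TC Cfsg.Agent.Lib.Helper56.TC.Tabs

theorem cN_16770 : allRange (fun x => forceN T.chkName x) 16770 472 = true := by decide +kernel
theorem cN_17242 : allRange (fun x => forceN T.chkName x) 17242 461 = true := by decide +kernel
theorem cN_17703 : allRange (fun x => forceN T.chkName x) 17703 455 = true := by decide +kernel
theorem cN_18158 : allRange (fun x => forceN T.chkName x) 18158 486 = true := by decide +kernel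
theorem cN_18644 : allRange (fun x => forceN T.chkName x) 18644 474 = true := by decide +kernel
theorem cN_19118 : allRange (fun x => forceN T.chkName x) 19118 464 = true := by decide +kernel
theorem cN_19582 : allRange (fun x => forceN T.chkName x) 19582 452 = true := by decide +kernel
theorem cN_20034 : allRange (fun x => forceN T.chkName x) 20034 489 = true := by decide +kernel
theorem cN_20523 : allRange (fun x => forceN T.chkName x) 20523 473 = true := by decide +kernel
theorem cN_20996 : allRange (fun x => forceN T.chkName x) 20996 459 = true := by decide +kernel
theorem cN_21455 : allRange (fun x => forceN T.chkName x) 21455 471 = true := by decide +kernel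
theorem cN_21926 : allRange (fun x => forceN T.chkName x) 21926 477 = true := by decide +kernel

end Cfsg.Agent.Lib.Helper56.Fi23a
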