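import Mathlib
import Cfsg.Agent.Lib.Helper56.TC
import Cfsg.Agent.Lib.Helper56.Fi23a.D
set_option autoImplicit false
set_option maxRecDepth 1000000

namespace Cfsg.Agent.Lib.Helper56.Fi23a

open Cfsg.Agent.Lib.Helper56.TC Cfsg.Agent.Lib.Helper56.TC.Tabs

theorem cN_22403 : allRange (fun x => forceN T.chkName x) 22403 466 = true := by decide +kernel
theorem cN_22869 : allRange (fun x => forceN T.chkName x) 22869 466 = true := by decide +kernel
theorem cN_23335 : allRange (fun x => forceN T.chkName x) 23335 483 = true := by decide +kernel
theorem cN_23818 : allRange (fun x => forceN T.chkName x) 23818 461 = true := by decide +kernel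
theorem cN_24279 : allRange (fun x => forceN T.chkName x) 24279 481 = true := by decide +kernel
theorem cN_24760 : allRange (fun x => forceN T.chkName x) 24760 471 = true := by decide +kernel
theorem cN_25231 : allRange (fun x => forceN T.chkName x) 25231 465 = true := by decide +kernel
theorem cN_25696 : allRange (fun x => forceN T.chkName x) 25696 481 = true := by decide +kernel
theorem cN_26177 : allRange (fun x => forceN T.chkName x) 26177 460 = true := by decide +kernel
theorem cN_26637 : allRange (fun x => forceN T.chkName x) 26637 483 = true := by decide +kernel
theorem cN_27120 : allRange (fun x => forceN T.chkName x) 27120 471 = true := by decide +kernel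
theorem cN_27591 : allRange (fun x => forceN T.chkName x) 27591 463 = true := by decide +kernel

end Cfsg.Agent.Lib.Helper56.Fi23a
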