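import Mathlib
import Cfsg.Agent.Lib.Helper56.TC
import Cfsg.Agent.Lib.Helper56.Fi23a.D
set_option autoImplicit false
set_option maxRecDepth 1000000

namespace Cfsg.Agent.Lib.Helper56.Fi23a

open Cfsg.Agent.Lib.Helper56.TC Cfsg.Agent.Lib.Helper56.TC.Tabs

theorem cN_28054 : allRange (fun x => forceN T.chkName x) 28054 482 = true := by decide +kernel
theorem cN_28536 : allRange (fun x => forceN T.chkName x) 28536 456 = true := by decide +kernel
theorem cN_28992 : allRange (fun x => forceN T.chkName x) 28992 489 = true := by decide +kernel
theorem cN_29481 : allRange (fun x => forceN T.chkName x) 29481 464 = true := by decide +kernel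
theorem cN_29945 : allRange (fun x => forceN T.chkName x) 29945 476 = true := by decide +kernel
theorem cN_30421 : allRange (fun x => forceN T.chkName x) 30421 469 = true := by decide +kernel
theorem cN_30890 : allRange (fun x => forceN T.chkName x) 30890 468 = true := by decide +kernel
theorem cN_31358 : allRange (fun x => forceN T.chkName x) 31358 510 = true := by decide +kernel
theorem cN_31868 : allRange (fun x => forceN T.chkName x) 31868 584 = true := by decide +kernel
theorem cN_32452 : allRange (fun x => forceN T.chkName x) 32452 583 = true := by decide +kernel
theorem cN_33035 : allRange (fun x => forceN T.chkName x) 33035 586 = true := by decide +kernel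
theorem cN_33621 : allRange (fun x => forceN T.chkName x) 33621 586 = true := by decide +kernel

end Cfsg.Agent.Lib.Helper56.Fi23a
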