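import Mathlib
import Cfsg.Agent.Lib.Helper56.TC
import Cfsg.Agent.Lib.Helper56.Fi23a.D
set_option autoImplicit false
set_option maxRecDepth 1000000

namespace Cfsg.Agent.Lib.Helper56.Fi23a

open Cfsg.Agent.Lib.Helper56.TC Cfsg.Agent.Lib.Helper56.TC.Tabs

theorem cN_34207 : allRange (fun x => forceN T.chkName x) 34207 593 = true := by decide +kernel
theorem cN_34800 : allRange (fun x => forceN T.chkName x) 34800 587 = true := by decide +kernel
theorem cN_35387 : allRange (fun x => forceN T.chkName x) 35387 584 = true := by decide +kernel
theorem cN_35971 : allRange (fun x => forceN T.chkName x) 35971 596 = true := by decide +kernel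
theorem cN_36567 : allRange (fun x => forceN T.chkName x) 36567 583 = true := by decide +kernel
theorem cN_37150 : allRange (fun x => forceN T.chkName x) 37150 589 = true := by decide +kernel
theorem cN_37739 : allRange (fun x => forceN T.chkName x) 37739 595 = true := by decide +kernel
theorem cN_38334 : allRange (fun x => forceN T.chkName x) 38334 587 = true := by decide +kernel
theorem cN_38921 : allRange (fun x => forceN T.chkName x) 38921 612 = true := by decide +kernel
theorem cN_39533 : allRange (fun x => forceN T.chkName x) 39533 625 = true := by decide +kernel
theorem cN_40158 : allRange (fun x => forceN T.chkName x) 40158 634 = true := by decide +kernel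
theorem cN_40792 : allRange (fun x => forceN T.chkName x) 40792 631 = true := by decide +kernel

end Cfsg.Agent.Lib.Helper56.Fi23a
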