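import Mathlib
import Cfsg.Agent.Lib.Helper56.TC
import Cfsg.Agent.Lib.Helper56.Fi23a.D
set_option autoImplicit false
set_option maxRecDepth 1000000

namespace Cfsg.Agent.Lib.Helper56.Fi23a

open Cfsg.Agent.Lib.Helper56.TC Cfsg.Agent.Lib.Helper56.TC.Tabs

theorem cN_41423 : allRange (fun x => forceN T.chkName x) 41423 38 = true := by decide +kernel
theorem cV_0 : allRange (fun x => forceN T.chkV x) 0 372 = true := by decide +kernel
theorem cV_372 : allRange (fun x => forceN T.chkV x) 372 372 = true := by decide +kernel
theorem cV_744 : allRange (fun x => forceN T.chkV x) 744 372 = true := by decide +kernel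
theorem cV_1116 : allRange (fun x => forceN T.chkV x) 1116 372 = true := by decide +kernel
theorem cV_1488 : allRange (fun x => forceN T.chkV x) 1488 372 = true := by decide +kernel
theorem cV_1860 : allRange (fun x => forceN T.chkV x) 1860 372 = true := by decide +kernel
theorem cV_2232 : allRange (fun x => forceN T.chkV x) 2232 372 = true := by decide +kernel
theorem cV_2604 : allRange (fun x => forceN T.chkV x) 2604 372 = true := by decide +kernel
theorem cV_2976 : allRange (fun x => forceN T.chkV x) 2976 372 = true := by decide +kernel
theorem cV_3348 : allRange (fun x => forceN T.chkV x) 3348 372 = true := by decide +kernel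
theorem cV_3720 : allRange (fun x => forceN T.chkV x) 3720 372 = true := by decide +kernel

end Cfsg.Agent.Lib.Helper56.Fi23a
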