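import Mathlib
import Cfsg.Agent.Lib.Helper56.TC
import Cfsg.Agent.Lib.Helper56.Fi23a.D
set_option autoImplicit false
set_option maxRecDepth 1000000

namespace Cfsg.Agent.Lib.Helper56.Fi23a

open Cfsg.Agent.Lib.Helper56.TC Cfsg.Agent.Lib.Helper56.TC.Tabs

theorem cV_4092 : allRange (fun x => forceN T.chkV x) 4092 372 = true := by decide +kernel
theorem cV_4464 : allRange (fun x => forceN T.chkV x) 4464 372 = true := by decide +kernel
theorem cV_4836 : allRange (fun x => forceN T.chkV x) 4836 372 = true := by decide +kernel
theorem cV_5208 : allRange (fun x => forceN T.chkV x) 5208 372 = true := by decide +kernel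
theorem cV_5580 : allRange (fun x => forceN T.chkV x) 5580 372 = true := by decide +kernel
theorem cV_5952 : allRange (fun x => forceN T.chkV x) 5952 372 = true := by decide +kernel
theorem cV_6324 : allRange (fun x => forceN T.chkV x) 6324 372 = true := by decide +kernel
theorem cV_6696 : allRange (fun x => forceN T.chkV x) 6696 372 = true := by decide +kernel
theorem cV_7068 : allRange (fun x => forceN T.chkV x) 7068 372 = true := by decide +kernel
theorem cV_7440 : allRange (fun x => forceN T.chkV x) 7440 372 = true := by decide +kernel
theorem cV_7812 : allRange (fun x => forceN T.chkV x) 7812 372 = true := by decide +kernel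
theorem cV_8184 : allRange (fun x => forceN T.chkV x) 8184 372 = true := by decide +kernel

end Cfsg.Agent.Lib.Helper56.Fi23a
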