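import Mathlib
import Cfsg.Agent.Lib.Helper56.TC
import Cfsg.Agent.Lib.Helper56.Fi23a.D
set_option autoImplicit false
set_option maxRecDepth 1000000

namespace Cfsg.Agent.Lib.Helper56.Fi23a

open Cfsg.Agent.Lib.Helper56.TC Cfsg.Agent.Lib.Helper56.TC.Tabs

theorem cV_8556 : allRange (fun x => forceN T.chkV x) 8556 372 = true := by decide +kernel
theorem cV_8928 : allRange (fun x => forceN T.chkV x) 8928 372 = true := by decide +kernel
theorem cV_9300 : allRange (fun x => forceN T.chkV x) 9300 372 = true := by decide +kernel
theorem cV_9672 : allRange (fun x => forceN T.chkV x) 9672 372 = true := by decide +kernel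
theorem cV_10044 : allRange (fun x => forceN T.chkV x) 10044 372 = true := by decide +kernel
theorem cV_10416 : allRange (fun x => forceN T.chkV x) 10416 372 = true := by decide +kernel
theorem cV_10788 : allRange (fun x => forceN T.chkV x) 10788 372 = true := by decide +kernel
theorem cV_11160 : allRange (fun x => forceN T.chkV x) 11160 372 = true := by decide +kernel
theorem cV_11532 : allRange (fun x => forceN T.chkV x) 11532 372 = true := by decide +kernel
theorem cV_11904 : allRange (fun x => forceN T.chkV x) 11904 372 = true := by decide +kernel
theorem cV_12276 : allRange (fun x => forceN T.chkV x) 12276 372 = true := by decide +kernel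
theorem cV_12648 : allRange (fun x => forceN T.chkV x) 12648 372 = true := by decide +kernel

end Cfsg.Agent.Lib.Helper56.Fi23a
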